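import Cfsg.Agent.H419.EP.Iface
import Cfsg.Agent.H914.Sub

/-!
# S3499, subfield classes: the criteria (helper96)

* `kill_norm` : `g ∈ Â` normalises `Â ∩ Â^x` and `g ∉ Â^x`: impossible;
* `Phi φ B` : the field automorphism `φ` with respect to the basis `B`;
* `mem_iff` : `subfieldSubgroup F₁ B = {g | Phi φ B g ∈ g * scalars}`;
* `kill_subfield` : `Â ≤ subfieldSubgroup F₁ B` is impossible if `x, g ∈ S`, `g ∈ subfieldSubgroup F₁ B`,
  `g x g⁻¹ = x⁻¹`, `x` commutes with `Phi φ B x` and `x ^ 2 ∉ subfieldSubgroup F₁ B`.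
-/

set_option autoImplicit false
set_option linter.unusedSectionVars false

namespace Cfsg.Agent.H96.C5

open Subgroup Cfsg.Geo Cfsg.Agent.H284 Cfsg.Agent.H419.EP
open scoped MatrixGroups Matrix

section norm

variable {Q : Type*} [Group Q] [Finite Q] {A : Subgroup Q} {Γ : Subgroup (MulAut Q)} (h : EPT A Γ)
variable {ι : Type} [Fintype ι] [DecidableEq ι] {F : Type*} [Field F] {S : Subgroup (GL ι F)} (m : Model Q S)

include h

/-- **`M̂0 = Â ∩ Â^x` is its own normaliser in `Â`.** -/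
theorem kill_norm {x g : GL ι F} (hxS : x ∈ S) (hx : x ∉ m.hat A) (hg : g ∈ m.hat A)
    (hgx : g ∉ cj x (m.hat A)) (hn : ∀ a ∈ m.hat A ⊓ cj x (m.hat A), g * a * g⁻¹ ∈ cj x (m.hat A)) : False := by
  apply hgx
  refine kill_char h m hxS hx (m.hat A ⊓ cj x (m.hat A)) le_rfl ?_ ?_ hg ?_
  · intro hle
    obtain ⟨s, hs, hs'⟩ := exists_nonscalar h m hxS hx
    exact hs' (hle hs)
  · have h1 : (((m.hat A ⊓ cj x (m.hat A)).subgroupOf S).map m.π).subgroupOf (A ⊓ cj (m.π ⟨x, hxS⟩) A) = ⊤ := by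
      rw [← M0_eq_map m hxS]
      exact subgroupOf_self _
    rw [h1]
    infer_instance
  · intro k hk
    exact ⟨(m.hat A).mul_mem ((m.hat A).mul_mem hg hk.1) ((m.hat A).inv_mem hg), hn k hk⟩

end norm

section Phi

variable {ι : Type} [Fintype ι] [DecidableEq ι] {F : Type*} [Field F]

/-- the automorphism of `GL` given by `φ` and the basis `B` -/
def Phi (φ : F →+* F) (B : GL ι F) : GL ι F →* GL ι F :=
  (MulAut.conj B).toMonoidHom.comp ((Matrix.GeneralLinearGroup.map φ).comp (MulAut.conj B⁻¹).toMonoidHom)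

theorem Phi_apply (φ : F →+* F) (B g : GL ι F) :
    Phi φ B g = B * Matrix.GeneralLinearGroup.map φ (B⁻¹ * g * B) * B⁻¹ := by
  show B * Matrix.GeneralLinearGroup.map φ (B⁻¹ * g * B⁻¹⁻¹) * B⁻¹ = _
  rw [inv_inv]

/-- the fixed field of a power of the Frobenius automorphism -/
theorem exists_phi [Finite F] (F₁ : Subfield F) : ∃ φ : F →+* F, ∀ a, a ∈ F₁ ↔ φ a = a := by
  obtain ⟨p, hp⟩ := CharP.exists F
  have hpp : p.Prime := (CharP.char_is_prime_or_zero F p).resolve_right (CharP.char_ne_zero_of_finite F p)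
  have : Fact p.Prime := ⟨hpp⟩
  have := Fintype.ofFinite F₁
  have hp1 : CharP F₁ p := (algebraMap F₁ F).charP (algebraMap F₁ F).injective p
  obtain ⟨n, -, hn⟩ := FiniteField.card F₁ p
  refine ⟨iterateFrobenius F p n, fun a => ?_⟩
  rw [Cfsg.Agent.H914.mem_subfield_iff_pow, iterateFrobenius_def, Nat.card_eq_fintype_card, hn]

variable {F₁ : Subfield F} {φ : F →+* F} (hφ : ∀ a, a ∈ F₁ ↔ φ a = a) {B : GL ι F}

include hφ

theorem mem_iff {g : GL ι F} : g ∈ subfieldSubgroup F₁ B ↔ ∃ z ∈ scalars ι F, Phi φ B g = g * z := by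
  rw [Cfsg.Agent.H914.mem_subfieldSubgroup_iff]
  set M : GL ι F := B⁻¹ * g * B with hM
  have hg : g = B * M * B⁻¹ := by rw [hM]; group
  constructor
  · rintro ⟨c, hc0, hc⟩
    have hφc : φ c ≠ 0 := (map_ne_zero φ).2 hc0
    let d : Fˣ := Units.mk0 (c / φ c) (div_ne_zero hc0 hφc)
    let z : GL ι F := Units.map (Matrix.scalar ι : F →+* Matrix ι ι F).toMonoidHom d
    have hz : z ∈ scalars ι F := ⟨d, rfl⟩
    refine ⟨z, hz, ?_⟩
    have h1 : Matrix.GeneralLinearGroup.map φ M = M * z := by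
      apply Units.ext
      ext i j
      have h2 : ((M * z : GL ι F) : Matrix ι ι F) i j = (M : Matrix ι ι F) i j * (c / φ c) := by
        rw [Units.val_mul]
        show ((M : Matrix ι ι F) * Matrix.scalar ι (c / φ c)) i j = _
        rw [Matrix.scalar_apply, Matrix.mul_diagonal]
      rw [h2]
      show φ ((M : Matrix ι ι F) i j) = _
      have h3 := (hφ _).1 (hc i j)
      rw [map_mul] at h3
      field_simp
      linear_combination h3
    -- z is central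
    have hzc : z * B⁻¹ = B⁻¹ * z := by
      apply Units.ext
      rw [Units.val_mul, Units.val_mul]
      exact (Matrix.scalar_commute (c / φ c) (fun r' => mul_comm _ _) _).eq
    calc Phi φ B g = B * (M * z) * B⁻¹ := by rw [Phi_apply, ← hM, h1]
      _ = B * M * (z * B⁻¹) := by group
      _ = B * M * B⁻¹ * z := by rw [hzc]; group
      _ = g * z := by rw [← hg]
  · rintro ⟨z, hz, hgz⟩
    obtain ⟨d, hd⟩ := (mem_scalars_iff z).1 hz
    have hzc : z * B = B * z := by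
      apply Units.ext
      rw [Units.val_mul, Units.val_mul, hd]
      simp
    have h1 : Matrix.GeneralLinearGroup.map φ M = M * z := by
      rw [Phi_apply, ← hM] at hgz
      have h2 : Matrix.GeneralLinearGroup.map φ M = B⁻¹ * (g * z) * B := by
        rw [← hgz]; group
      rw [h2, hM, mul_assoc, mul_assoc, hzc, ← mul_assoc, ← mul_assoc]
    have h2 : ∀ i j, φ ((M : Matrix ι ι F) i j) = (M : Matrix ι ι F) i j * d := by
      intro i j
      have h3 := congrArg (fun N : GL ι F => (N : Matrix ι ι F) i j) h1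
      have h4 : ((M * z : GL ι F) : Matrix ι ι F) i j = (M : Matrix ι ι F) i j * d := by
        rw [Units.val_mul, hd, mul_smul_comm, mul_one, Matrix.smul_apply, smul_eq_mul, mul_comm]
      rw [← h4]
      exact h3
    by_cases hex : ∃ k l, (M : Matrix ι ι F) k l ≠ 0
    · obtain ⟨k, l, hkl⟩ := hex
      refine ⟨((M : Matrix ι ι F) k l)⁻¹, inv_ne_zero hkl, fun i j => ?_⟩
      rw [hφ, map_mul, map_inv₀, h2, h2]
      have hd0 : (d : F) ≠ 0 := d.ne_zero
      field_simp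
    · push Not at hex
      exact ⟨1, one_ne_zero, fun i j => by rw [hex, mul_zero]; exact F₁.zero_mem⟩

/-- **The key computation.** -/
theorem key {x a : GL ι F} (hc : Phi φ B x * x = x * Phi φ B x) (ha : a ∈ subfieldSubgroup F₁ B)
    (hax : x⁻¹ * a * x ∈ subfieldSubgroup F₁ B) : x * a * x⁻¹ ∈ subfieldSubgroup F₁ B := by
  rw [mem_iff hφ] at ha hax ⊢
  obtain ⟨z₁, hz₁, h1⟩ := ha
  obtain ⟨z₂, hz₂, h2⟩ := hax
  rw [map_mul, map_mul, map_inv, h1] at h2
  set y := Phi φ B x with hy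
  have hcomm : ∀ {z : GL ι F}, z ∈ scalars ι F → ∀ b : GL ι F, z * b = b * z := by
    intro z hz b
    obtain ⟨d, hd⟩ := (mem_scalars_iff z).1 hz
    apply Units.ext
    rw [Units.val_mul, Units.val_mul, hd]
    simp
  refine ⟨z₁ * z₁ * z₂⁻¹, (scalars ι F).mul_mem ((scalars ι F).mul_mem hz₁ hz₁) ((scalars ι F).inv_mem hz₂), ?_⟩
  rw [map_mul, map_mul, map_inv, h1]
  show y * (a * z₁) * y⁻¹ = x * a * x⁻¹ * (z₁ * z₁ * z₂⁻¹)
  -- `y⁻¹ a z₁ y = x⁻¹ a x z₂`
  have e1 : y⁻¹ * a * y = x⁻¹ * a * x * (z₂ * z₁⁻¹) := by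
    have e2 : y⁻¹ * (a * z₁) * y = y⁻¹ * a * y * z₁ := by
      rw [mul_assoc y⁻¹ (a * z₁) y, mul_assoc a z₁ y, hcomm hz₁ y]
      group
    rw [e2] at h2
    rw [← mul_assoc, ← h2]
    group
  -- `a` commutes with `w = y x⁻¹` modulo scalars
  have hyx : y * x⁻¹ = x⁻¹ * y := by
    rw [mul_inv_eq_iff_eq_mul, mul_assoc, hc]
    group
  set s := z₂ * z₁⁻¹ with hs
  have hsS : s ∈ scalars ι F := (scalars ι F).mul_mem hz₂ ((scalars ι F).inv_mem hz₁)
  -- a = (y x⁻¹) a (y x⁻¹)⁻¹ s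
  have e3 : a = (y * x⁻¹) * a * (y * x⁻¹)⁻¹ * s := by
    have e4 : a = y * (x⁻¹ * a * x * s) * y⁻¹ := by
      rw [← e1]; group
    have e5 : y * (x⁻¹ * a * x * s) * y⁻¹ = (y * x⁻¹) * a * x * (s * y⁻¹) := by group
    rw [e5, hcomm hsS] at e4
    rw [mul_inv_rev, inv_inv]
    calc a = (y * x⁻¹) * a * x * (y⁻¹ * s) := e4
      _ = y * x⁻¹ * a * (x * y⁻¹) * s := by group
  have e6 : (y * x⁻¹) * a * (y * x⁻¹)⁻¹ = a * s⁻¹ := by
    rw [eq_mul_inv_iff_mul_eq]
    exact e3.symm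
  have e7 : y * a * y⁻¹ = x * a * x⁻¹ * s⁻¹ := by
    have e8 : y = x * (y * x⁻¹) := by
      rw [hyx]; group
    calc y * a * y⁻¹ = x * ((y * x⁻¹) * a * (y * x⁻¹)⁻¹) * x⁻¹ := by
          conv_lhs => rw [e8]
          group
      _ = x * (a * s⁻¹) * x⁻¹ := by rw [e6]
      _ = x * a * (s⁻¹ * x⁻¹) := by group
      _ = x * a * (x⁻¹ * s⁻¹) := by rw [hcomm ((scalars ι F).inv_mem hsS)]
      _ = x * a * x⁻¹ * s⁻¹ := by group
  calc y * (a * z₁) * y⁻¹ = y * a * (z₁ * y⁻¹) := by group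
    _ = y * a * (y⁻¹ * z₁) := by rw [hcomm hz₁]
    _ = y * a * y⁻¹ * z₁ := by group
    _ = x * a * x⁻¹ * s⁻¹ * z₁ := by rw [e7]
    _ = x * a * x⁻¹ * (z₁ * z₂⁻¹ * z₁) := by rw [hs]; group
    _ = x * a * x⁻¹ * (z₁ * z₁ * z₂⁻¹) := by
      rw [mul_assoc z₁ z₂⁻¹ z₁, hcomm ((scalars ι F).inv_mem hz₂) z₁]
      group

end Phi

section kill

variable {Q : Type*} [Group Q] [Finite Q] {A : Subgroup Q} {Γ : Subgroup (MulAut Q)} (h : EPT A Γ)
variable {ι : Type} [Fintype ι] [DecidableEq ι] {F : Type*} [Field F] {S : Subgroup (GL ι F)} (m : Model Q S)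

include h

/-- **The kill for the subfield classes.** -/
theorem kill_subfield {F₁ : Subfield F} {φ : F →+* F} (hφ : ∀ a, a ∈ F₁ ↔ φ a = a) {B : GL ι F}
    (hA : m.hat A ≤ subfieldSubgroup F₁ B) {x g : GL ι F} (hxS : x ∈ S) (hgS : g ∈ S)
    (hgM : g ∈ subfieldSubgroup F₁ B) (hgx : g * x * g⁻¹ = x⁻¹) (hc : Phi φ B x * x = x * Phi φ B x)
    (hx2 : x * x ∉ subfieldSubgroup F₁ B) : False := by
  set M := subfieldSubgroup F₁ B with hM
  have hxM : x ∉ M := fun hx => hx2 (M.mul_mem hx hx)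
  have hhat : m.hat A = S ⊓ M := by
    rcases (m.isMaximalIn h.max).2 (S ⊓ M) (le_inf (m.hat_le A) hA) inf_le_left with h1 | h1
    · exact h1.symm
    · exfalso
      apply hxM
      have h2 : x ∈ S ⊓ M := by rw [h1]; exact hxS
      exact h2.2
  have hx : x ∉ m.hat A := fun hx => hxM (hA hx)
  have hg : g ∈ m.hat A := by rw [hhat]; exact ⟨hgS, hgM⟩
  have e0 : x⁻¹ * g = g * x := by
    rw [← hgx]; group
  refine kill_norm h m hxS hx hg ?_ ?_
  · rw [mem_cj]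
    intro h1
    apply hx2
    have e1 : x⁻¹ * g * x = g * (x * x) := by rw [e0]; group
    rw [e1] at h1
    have h2 := M.mul_mem (M.inv_mem hgM) (hA h1)
    rwa [inv_mul_cancel_left] at h2
  · rintro a ⟨ha, hax⟩
    have hax := mem_cj.1 hax
    rw [mem_cj]
    have e1 : x⁻¹ * (g * a * g⁻¹) * x = g * (x * a * x⁻¹) * g⁻¹ := by
      have e2 : g⁻¹ * x = x⁻¹ * g⁻¹ := by
        have e3 := congrArg (fun t => t⁻¹) e0
        simp only [mul_inv_rev, inv_inv] at e3
        exact e3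
      calc x⁻¹ * (g * a * g⁻¹) * x = (x⁻¹ * g) * a * (g⁻¹ * x) := by group
        _ = g * x * a * (x⁻¹ * g⁻¹) := by rw [e0, e2]
        _ = g * (x * a * x⁻¹) * g⁻¹ := by group
    rw [e1]
    have h1 := key hφ hc (hA ha) (hA hax)
    have haS := m.hat_le A ha
    rw [hhat]
    exact ⟨S.mul_mem (S.mul_mem hgS (S.mul_mem (S.mul_mem hxS haS) (S.inv_mem hxS))) (S.inv_mem hgS),
      M.mul_mem (M.mul_mem hgM h1) (M.inv_mem hgM)⟩

end kill

end Cfsg.Agent.H96.C5
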