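import Cfsg.Agent.H96.C5.Orth
import Cfsg.Agent.H778.EP.OmAsm

/-!
# S3499, row `OmC5` of helper778's assembly (helper96)
-/

set_option autoImplicit false

namespace Cfsg.Agent.H96.C5

open Cfsg.Agent.H284 Cfsg.Agent.H419.EP

theorem omC5 : Cfsg.Agent.H778.EP.OmC5 := by
  intro Q _ _ hs A Γ h F _ _ ι _ _ Qf m h7 hQ hC
  obtain ⟨hirr, F₁, r, B, ζ, -, hr, hcard, hζ, hB, hA⟩ := hC
  exact Orth.om_C5 hs h m h7 hQ hirr hr hcard hζ hB hA

end Cfsg.Agent.H96.C5
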