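import Cfsg.Agent.H96.C5.Crit

/-!
# S3499, subfield classes: extension of small matrices (helper96)

`P : Matrix ι κ F`, `R : Matrix κ ι F`, `R * P = 1`: `T ↦ 1 + P * (T - 1) * R` is a homomorphism
`extG : GL κ F →* GL ι F`.

* `Phi_ext` : `Phi φ B (extG T) = extG (φ T)` if `P`, `R` are rational with respect to `B`;
* `ext_mem` : `extG T ∈ subfieldSubgroup F₁ B` if `φ T = T`; `of_ext_mem` : the converse if `|κ| < |ι|`;
* `kill_ext` : the criterion for two matrices `X`, `G` of size `κ`.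
-/

set_option autoImplicit false
set_option linter.unusedSectionVars false

namespace Cfsg.Agent.H96.C5

open Subgroup Cfsg.Geo Cfsg.Agent.H284 Cfsg.Agent.H419.EP
open scoped MatrixGroups Matrix

variable {ι : Type} [Fintype ι] [DecidableEq ι] {κ : Type} [Fintype κ] [DecidableEq κ] {F : Type*} [Field F]
  {P : Matrix ι κ F} {R : Matrix κ ι F} (h : R * P = 1)

/-- the extension of `T` -/
def extM (h : R * P = 1) : Matrix κ κ F →* Matrix ι ι F where
  toFun T := 1 + P * (T - 1) * R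
  map_one' := by rw [sub_self, Matrix.mul_zero, Matrix.zero_mul, add_zero]
  map_mul' A B := by
    have e1 : P * (A - 1) * R * (P * (B - 1) * R) = P * ((A - 1) * (B - 1)) * R := by
      calc P * (A - 1) * R * (P * (B - 1) * R) = P * (A - 1) * (R * P) * (B - 1) * R := by
            simp only [Matrix.mul_assoc]
        _ = P * ((A - 1) * (B - 1)) * R := by rw [h, Matrix.mul_one]; simp only [Matrix.mul_assoc]
    rw [Matrix.add_mul, Matrix.mul_add, Matrix.one_mul, Matrix.mul_add, Matrix.mul_one, e1]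
    have e2 : A * B - 1 = (B - 1) + ((A - 1) + (A - 1) * (B - 1)) := by noncomm_ring
    rw [e2, Matrix.mul_add, Matrix.mul_add, Matrix.add_mul, Matrix.add_mul, Matrix.one_mul]
    abel

/-- the extension of `T` -/
def extG (h : R * P = 1) : GL κ F →* GL ι F := Units.map (extM h)

theorem extG_val (T : GL κ F) : ((extG h T : GL ι F) : Matrix ι ι F) = 1 + P * ((T : Matrix κ κ F) - 1) * R := rfl

theorem extG_mulVec (T : GL κ F) (v : ι → F) :
    ((extG h T : GL ι F) : Matrix ι ι F) *ᵥ v = v + P *ᵥ ((T : Matrix κ κ F) *ᵥ (R *ᵥ v) - R *ᵥ v) := by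
  rw [extG_val, Matrix.add_mulVec, Matrix.one_mulVec, ← Matrix.mulVec_mulVec, ← Matrix.mulVec_mulVec,
    Matrix.sub_mulVec, Matrix.one_mulVec]

theorem extG_inj_val {T : GL κ F} : R * ((extG h T : GL ι F) : Matrix ι ι F) * P = T := by
  rw [extG_val, Matrix.mul_add, Matrix.add_mul, Matrix.mul_one, h]
  have e1 : R * (P * ((T : Matrix κ κ F) - 1) * R) * P = (R * P) * ((T : Matrix κ κ F) - 1) * (R * P) := by
    simp only [Matrix.mul_assoc]
  rw [e1, h, Matrix.one_mul, Matrix.mul_one]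
  abel

section Phi

variable {φ : F →+* F} {B : GL ι F} (hP : ((B⁻¹ : GL ι F).val * P).map φ = (B⁻¹ : GL ι F).val * P)
  (hR : (R * (B : Matrix ι ι F)).map φ = R * (B : Matrix ι ι F))

include hP hR

theorem Phi_ext (T : GL κ F) : Phi φ B (extG h T) = extG h (Matrix.GeneralLinearGroup.map φ T) := by
  apply Units.ext
  rw [Phi_apply, Units.val_mul, Units.val_mul]
  have e1 : ((Matrix.GeneralLinearGroup.map φ (B⁻¹ * extG h T * B) : GL ι F) : Matrix ι ι F) =
      ((B⁻¹ : GL ι F).val * (1 + P * ((T : Matrix κ κ F) - 1) * R) * B.val).map φ := rfl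
  have e2 : (B⁻¹ : GL ι F).val * (1 + P * ((T : Matrix κ κ F) - 1) * R) * B.val =
      1 + ((B⁻¹ : GL ι F).val * P) * ((T : Matrix κ κ F) - 1) * (R * B.val) := by
    rw [Matrix.mul_add, Matrix.add_mul, Matrix.mul_one, Units.inv_mul]
    simp only [Matrix.mul_assoc]
  have e3 : ((B⁻¹ : GL ι F).val * (1 + P * ((T : Matrix κ κ F) - 1) * R) * B.val).map φ =
      1 + ((B⁻¹ : GL ι F).val * P) * ((T : Matrix κ κ F).map φ - 1) * (R * B.val) := by
    rw [e2, Matrix.map_add φ (map_add φ), Matrix.map_mul, Matrix.map_mul, hP, hR, Matrix.map_sub φ (map_sub φ),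
      Matrix.map_one φ (map_zero φ) (map_one φ), Matrix.map_one φ (map_zero φ) (map_one φ)]
  rw [e1, e3, extG_val]
  rw [Matrix.mul_add, Matrix.add_mul, Matrix.mul_one, Units.mul_inv]
  have e4 : B.val * ((B⁻¹ : GL ι F).val * P * ((T : Matrix κ κ F).map φ - 1) * (R * B.val)) * (B⁻¹ : GL ι F).val =
      (B.val * (B⁻¹ : GL ι F).val) * P * ((T : Matrix κ κ F).map φ - 1) * R * (B.val * (B⁻¹ : GL ι F).val) := by
    simp only [Matrix.mul_assoc]
  rw [e4, Units.mul_inv, Matrix.one_mul, Matrix.mul_one]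
  rfl

variable {F₁ : Subfield F} (hφ : ∀ a, a ∈ F₁ ↔ φ a = a)

include hφ

theorem ext_mem {T : GL κ F} (hT : Matrix.GeneralLinearGroup.map φ T = T) : extG h T ∈ subfieldSubgroup F₁ B := by
  rw [mem_iff hφ]
  exact ⟨1, (scalars ι F).one_mem, by rw [Phi_ext h hP hR, hT, mul_one]⟩

theorem of_ext_mem (hcard : Fintype.card κ < Fintype.card ι) {T : GL κ F}
    (hT : extG h T ∈ subfieldSubgroup F₁ B) : Matrix.GeneralLinearGroup.map φ T = T := by
  rw [mem_iff hφ] at hT
  obtain ⟨z, hz, h1⟩ := hT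
  rw [Phi_ext h hP hR] at h1
  obtain ⟨d, hd⟩ := (mem_scalars_iff z).1 hz
  -- a vector in the kernel of `R`
  obtain ⟨w, hw0, hw⟩ : ∃ w : ι → F, w ≠ 0 ∧ R *ᵥ w = 0 := by
    have h2 : LinearMap.ker (Matrix.mulVecLin R) ≠ ⊥ := by
      apply LinearMap.ker_ne_bot_of_finrank_lt
      rw [Module.finrank_fintype_fun_eq_card, Module.finrank_fintype_fun_eq_card]
      exact hcard
    obtain ⟨w, hw, hw0⟩ := (Submodule.ne_bot_iff _).1 h2
    exact ⟨w, hw0, LinearMap.mem_ker.1 hw⟩
  have hfix : ∀ S : GL κ F, ((extG h S : GL ι F) : Matrix ι ι F) *ᵥ w = w := by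
    intro S
    rw [extG_mulVec, hw, Matrix.mulVec_zero, sub_zero, Matrix.mulVec_zero, add_zero]
  have h2 := congrArg (fun g : GL ι F => (g : Matrix ι ι F) *ᵥ w) h1
  rw [Units.val_mul, hd, mul_smul_comm, mul_one, Matrix.smul_mulVec, hfix, hfix] at h2
  have hd1 : (d : F) = 1 := by
    obtain ⟨i, hi⟩ := Function.ne_iff.1 hw0
    have h3 := congrFun h2 i
    rw [Pi.smul_apply, smul_eq_mul] at h3
    have h4 : (1 - (d : F)) * w i = 0 := by linear_combination h3
    rcases mul_eq_zero.1 h4 with h5 | h5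
    · exact (sub_eq_zero.1 h5).symm
    · exact (hi h5).elim
  have hz1 : z = 1 := by
    apply Units.ext
    rw [hd, hd1, one_smul]
    rfl
  rw [hz1, mul_one] at h1
  apply Units.ext
  rw [← extG_inj_val h (T := Matrix.GeneralLinearGroup.map φ T), h1, extG_inj_val]

end Phi

section kill

variable {Q : Type*} [Group Q] [Finite Q] {A : Subgroup Q} {Γ : Subgroup (MulAut Q)} (hE : EPT A Γ)
variable {S : Subgroup (GL ι F)} (m : Model Q S)

include hE

/-- **The kill for two small matrices `X`, `G`.** -/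
theorem kill_ext {F₁ : Subfield F} {φ : F →+* F} (hφ : ∀ a, a ∈ F₁ ↔ φ a = a) {B : GL ι F}
    (hA : m.hat A ≤ subfieldSubgroup F₁ B)
    (hP : ((B⁻¹ : GL ι F).val * P).map φ = (B⁻¹ : GL ι F).val * P)
    (hR : (R * (B : Matrix ι ι F)).map φ = R * (B : Matrix ι ι F)) (hcard : Fintype.card κ < Fintype.card ι)
    {X G : GL κ F} (hX : extG h X ∈ S) (hG : extG h G ∈ S) (hGφ : Matrix.GeneralLinearGroup.map φ G = G)
    (hGX : G * X * G⁻¹ = X⁻¹)
    (hc : Matrix.GeneralLinearGroup.map φ X * X = X * Matrix.GeneralLinearGroup.map φ X)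
    (hX2 : Matrix.GeneralLinearGroup.map φ (X * X) ≠ X * X) : False := by
  refine kill_subfield hE m hφ hA hX hG (ext_mem h hP hR hφ hGφ) ?_ ?_ ?_
  · rw [← map_mul, ← map_inv, ← map_mul, hGX, map_inv]
  · rw [Phi_ext h hP hR, ← map_mul, hc, map_mul]
  · intro h1
    rw [← map_mul] at h1
    exact hX2 (of_ext_mem h hP hR hφ hcard h1)

end kill

end Cfsg.Agent.H96.C5
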