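import Cfsg.Agent.H96.C5.Ext
import Cfsg.Agent.H926.Sub1
import Cfsg.Agent.H926.Split

/-!
# S3499-III-Om-C5: the subfield class of the orthogonal groups (helper96)

`om_C5` : `m.hat A ≤ subfieldSubgroup F₁ B` is impossible.
-/

set_option autoImplicit false
set_option linter.unusedSectionVars false

namespace Cfsg.Agent.H96.C5.Orth

open Subgroup Cfsg.Geo Cfsg.Agent.H284 Cfsg.Agent.H419.EP QuadraticMap Cfsg.Agent.H96.C5
open scoped MatrixGroups Matrix commutatorElement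

/-! ### The matrices of size four -/

section four

variable {F : Type*} [Field F]

/-- the hyperbolic quadratic form on `F ^ 4` -/
def q4 (u : Fin 4 → F) : F := u 0 * u 1 + u 2 * u 3

/-- `diag (c, c⁻¹, 1, 1)` -/
def tT (c : F) (hc : c ≠ 0) : GL (Fin 4) F where
  val := Matrix.diagonal ![c, c⁻¹, 1, 1]
  inv := Matrix.diagonal ![c⁻¹, c, 1, 1]
  val_inv := by
    rw [Matrix.diagonal_mul_diagonal, ← Matrix.diagonal_one]
    congr 1
    funext i
    fin_cases i <;> simp [hc]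
  inv_val := by
    rw [Matrix.diagonal_mul_diagonal, ← Matrix.diagonal_one]
    congr 1
    funext i
    fin_cases i <;> simp [hc]

/-- `diag (c, c⁻¹, c, c⁻¹)` -/
def tX (c : F) (hc : c ≠ 0) : GL (Fin 4) F where
  val := Matrix.diagonal ![c, c⁻¹, c, c⁻¹]
  inv := Matrix.diagonal ![c⁻¹, c, c⁻¹, c]
  val_inv := by
    rw [Matrix.diagonal_mul_diagonal, ← Matrix.diagonal_one]
    congr 1
    funext i
    fin_cases i <;> simp [hc]
  inv_val := by
    rw [Matrix.diagonal_mul_diagonal, ← Matrix.diagonal_one]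
    congr 1
    funext i
    fin_cases i <;> simp [hc]

/-- the reversal -/
def tS (F : Type*) [Field F] : GL (Fin 4) F where
  val := !![0, 0, 0, 1; 0, 0, 1, 0; 0, 1, 0, 0; 1, 0, 0, 0]
  inv := !![0, 0, 0, 1; 0, 0, 1, 0; 0, 1, 0, 0; 1, 0, 0, 0]
  val_inv := by
    ext i j
    fin_cases i <;> fin_cases j <;> simp [Matrix.mul_apply, Fin.sum_univ_four]
  inv_val := by
    ext i j
    fin_cases i <;> fin_cases j <;> simp [Matrix.mul_apply, Fin.sum_univ_four]

/-- the interchange of the two planes -/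
def tS2 (F : Type*) [Field F] : GL (Fin 4) F where
  val := !![0, 0, 1, 0; 0, 0, 0, 1; 1, 0, 0, 0; 0, 1, 0, 0]
  inv := !![0, 0, 1, 0; 0, 0, 0, 1; 1, 0, 0, 0; 0, 1, 0, 0]
  val_inv := by
    ext i j
    fin_cases i <;> fin_cases j <;> simp [Matrix.mul_apply, Fin.sum_univ_four]
  inv_val := by
    ext i j
    fin_cases i <;> fin_cases j <;> simp [Matrix.mul_apply, Fin.sum_univ_four]

/-- a reflection -/
def tR (F : Type*) [Field F] : GL (Fin 4) F where
  val := !![0, 1, 0, 0; 1, 0, 0, 0; 0, 0, 1, 0; 0, 0, 0, 1]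
  inv := !![0, 1, 0, 0; 1, 0, 0, 0; 0, 0, 1, 0; 0, 0, 0, 1]
  val_inv := by
    ext i j
    fin_cases i <;> fin_cases j <;> simp [Matrix.mul_apply, Fin.sum_univ_four]
  inv_val := by
    ext i j
    fin_cases i <;> fin_cases j <;> simp [Matrix.mul_apply, Fin.sum_univ_four]

/-- the product of two reflections -/
def tG (F : Type*) [Field F] : GL (Fin 4) F where
  val := !![0, 1, 0, 0; 1, 0, 0, 0; 0, 0, 0, 1; 0, 0, 1, 0]
  inv := !![0, 1, 0, 0; 1, 0, 0, 0; 0, 0, 0, 1; 0, 0, 1, 0]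
  val_inv := by
    ext i j
    fin_cases i <;> fin_cases j <;> simp [Matrix.mul_apply, Fin.sum_univ_four]
  inv_val := by
    ext i j
    fin_cases i <;> fin_cases j <;> simp [Matrix.mul_apply, Fin.sum_univ_four]

theorem comm_X (c : F) (hc : c ≠ 0) : ⁅tT c hc, tS F⁆ = tX c hc := by
  rw [commutatorElement_def, mul_inv_eq_iff_eq_mul, mul_inv_eq_iff_eq_mul]
  apply Units.ext
  ext i j
  fin_cases i <;> fin_cases j <;> simp [tT, tS, tX, Matrix.mul_apply, Matrix.diagonal, hc]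

theorem comm_G : ⁅tR F, tS2 F⁆ = tG F := by
  rw [commutatorElement_def, mul_inv_eq_iff_eq_mul, mul_inv_eq_iff_eq_mul]
  apply Units.ext
  ext i j
  fin_cases i <;> fin_cases j <;> simp [tR, tS2, tG, Matrix.mul_apply, Fin.sum_univ_four]

theorem G_X (c : F) (hc : c ≠ 0) : tG F * tX c hc * (tG F)⁻¹ = (tX c hc)⁻¹ := by
  rw [mul_inv_eq_iff_eq_mul]
  apply Units.ext
  have h1 : (((tX c hc)⁻¹ : GL (Fin 4) F) : Matrix (Fin 4) (Fin 4) F) = Matrix.diagonal ![c⁻¹, c, c⁻¹, c] := rfl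
  rw [Units.val_mul, Units.val_mul, h1]
  ext i j
  fin_cases i <;> fin_cases j <;> simp [tX, tG, Matrix.mul_apply, Matrix.diagonal]

theorem map_X (φ : F →+* F) (c : F) (hc : c ≠ 0) (hc' : φ c ≠ 0) :
    Matrix.GeneralLinearGroup.map φ (tX c hc) = tX (φ c) hc' := by
  apply Units.ext
  ext i j
  show φ ((tX c hc : Matrix (Fin 4) (Fin 4) F) i j) = _
  fin_cases i <;> fin_cases j <;> simp [tX, Matrix.diagonal]

theorem map_G (φ : F →+* F) : Matrix.GeneralLinearGroup.map φ (tG F) = tG F := by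
  apply Units.ext
  ext i j
  show φ ((tG F : Matrix (Fin 4) (Fin 4) F) i j) = _
  fin_cases i <;> fin_cases j <;> simp [tG]

theorem X_comm (c d : F) (hc : c ≠ 0) (hd : d ≠ 0) : tX c hc * tX d hd = tX d hd * tX c hc := by
  apply Units.ext
  rw [Units.val_mul, Units.val_mul]
  show Matrix.diagonal _ * Matrix.diagonal _ = Matrix.diagonal _ * Matrix.diagonal _
  rw [Matrix.diagonal_mul_diagonal, Matrix.diagonal_mul_diagonal]
  congr 1
  funext i
  exact mul_comm _ _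

theorem map_X2 (φ : F →+* F) (c : F) (hc : c ≠ 0)
    (h : Matrix.GeneralLinearGroup.map φ (tX c hc * tX c hc) = tX c hc * tX c hc) : φ (c * c) = c * c := by
  have h1 := congrArg (fun g : GL (Fin 4) F => (g : Matrix (Fin 4) (Fin 4) F) 0 0) h
  have h2 : ((tX c hc * tX c hc : GL (Fin 4) F) : Matrix (Fin 4) (Fin 4) F) 0 0 = c * c := by
    simp [tX, Matrix.mul_apply, Matrix.diagonal]
  have h3 : ((Matrix.GeneralLinearGroup.map φ (tX c hc * tX c hc) : GL (Fin 4) F) : Matrix (Fin 4) (Fin 4) F) 0 0 =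
      φ (((tX c hc * tX c hc : GL (Fin 4) F) : Matrix (Fin 4) (Fin 4) F) 0 0) := rfl
  rw [h3, h2] at h1
  exact h1

theorem iso_T (c : F) (hc : c ≠ 0) : tT c hc ∈ Cfsg.isometryGroup F (q4 (F := F)) := by
  rw [Cfsg.Agent.H925.mem_iso_iff]
  intro v
  simp [q4, tT, Matrix.mulVec, dotProduct, Matrix.diagonal]
  field_simp

theorem iso_S : tS F ∈ Cfsg.isometryGroup F (q4 (F := F)) := by
  rw [Cfsg.Agent.H925.mem_iso_iff]
  intro v
  simp [q4, tS, Matrix.mulVec, dotProduct, Fin.sum_univ_four]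
  ring

theorem iso_S2 : tS2 F ∈ Cfsg.isometryGroup F (q4 (F := F)) := by
  rw [Cfsg.Agent.H925.mem_iso_iff]
  intro v
  simp [q4, tS2, Matrix.mulVec, dotProduct, Fin.sum_univ_four]
  ring

theorem iso_R : tR F ∈ Cfsg.isometryGroup F (q4 (F := F)) := by
  rw [Cfsg.Agent.H925.mem_iso_iff]
  intro v
  simp [q4, tR, Matrix.mulVec, dotProduct, Fin.sum_univ_four]
  ring

end four

/-! ### Two hyperbolic pairs -/

section geo

variable {ι : Type} [Fintype ι] [DecidableEq ι] {F : Type*} [Field F] {Q : (ι → F) → F}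

/-- two orthogonal hyperbolic pairs, scaled by `k` -/
structure Hyp4 (Q : (ι → F) → F) (k : F) (b : Fin 4 → ι → F) : Prop where
  q : ∀ i, Q (b i) = 0
  p01 : polar Q (b 0) (b 1) = k
  p23 : polar Q (b 2) (b 3) = k
  p02 : polar Q (b 0) (b 2) = 0
  p03 : polar Q (b 0) (b 3) = 0
  p12 : polar Q (b 1) (b 2) = 0
  p13 : polar Q (b 1) (b 3) = 0

/-- the linear form `polar Q x` -/
def pl (hQ : IsNondegenerateQuadraticForm Q) (x : ι → F) : (ι → F) →ₗ[F] F where
  toFun := polar Q x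
  map_add' := hQ.polar_bilinear.add_right x
  map_smul' c y := hQ.polar_bilinear.smul_right c x y

theorem Q_zero (hQ : IsNondegenerateQuadraticForm Q) : Q 0 = 0 := by
  have h := hQ.smul 0 0
  rwa [zero_smul, zero_pow two_ne_zero, zero_mul] at h

theorem Q_add (Q : (ι → F) → F) (x y : ι → F) : Q (x + y) = Q x + Q y + polar Q x y := by
  unfold polar
  ring

theorem polar_self (hQ : IsNondegenerateQuadraticForm Q) {x : ι → F} (hx : Q x = 0) : polar Q x x = 0 := by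
  unfold polar
  rw [← two_smul F x, hQ.smul, hx]
  ring

/-- the permutation of the indices -/
def tau : Fin 4 → Fin 4 := ![1, 0, 3, 2]

/-- the matrix of the coordinates -/
def RR (hQ : IsNondegenerateQuadraticForm Q) (k : F) (b : Fin 4 → ι → F) : Matrix (Fin 4) ι F :=
  LinearMap.toMatrix' (LinearMap.pi fun j => k⁻¹ • pl hQ (b (tau j)))

/-- the matrix with columns `b j` -/
def PP (b : Fin 4 → ι → F) : Matrix ι (Fin 4) F := Matrix.of fun i j => b j i

theorem RR_mulVec (hQ : IsNondegenerateQuadraticForm Q) (k : F) (b : Fin 4 → ι → F) (v : ι → F) (j : Fin 4) :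
    (RR hQ k b *ᵥ v) j = k⁻¹ * polar Q (b (tau j)) v := by
  unfold RR
  rw [LinearMap.toMatrix'_mulVec]
  rfl

theorem PP_mulVec (b : Fin 4 → ι → F) (w : Fin 4 → F) :
    PP b *ᵥ w = w 0 • b 0 + w 1 • b 1 + w 2 • b 2 + w 3 • b 3 := by
  ext i
  show ∑ j, b j i * w j = _
  rw [Fin.sum_univ_four]
  simp only [Pi.add_apply, Pi.smul_apply, smul_eq_mul]
  ring

variable (hQ : IsNondegenerateQuadraticForm Q) {k : F} (hk : k ≠ 0) {b : Fin 4 → ι → F} (hb : Hyp4 Q k b)

include hQ hb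

theorem polar_PP (v : ι → F) (w : Fin 4 → F) : polar Q v (PP b *ᵥ w) =
    w 0 * polar Q v (b 0) + w 1 * polar Q v (b 1) + w 2 * polar Q v (b 2) + w 3 * polar Q v (b 3) := by
  rw [PP_mulVec, hQ.polar_bilinear.add_right, hQ.polar_bilinear.add_right, hQ.polar_bilinear.add_right,
    hQ.polar_bilinear.smul_right, hQ.polar_bilinear.smul_right, hQ.polar_bilinear.smul_right,
    hQ.polar_bilinear.smul_right]

theorem polar_b (w : Fin 4 → F) : polar Q (b 0) (PP b *ᵥ w) = k * w 1 ∧ polar Q (b 1) (PP b *ᵥ w) = k * w 0 ∧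
    polar Q (b 2) (PP b *ᵥ w) = k * w 3 ∧ polar Q (b 3) (PP b *ᵥ w) = k * w 2 := by
  have hs := fun i => polar_self hQ (hb.q i)
  have c10 := hb.p01
  have c32 := hb.p23
  have c20 := hb.p02
  have c30 := hb.p03
  have c21 := hb.p12
  have c31 := hb.p13
  rw [polar_comm] at c10 c32 c20 c30 c21 c31
  refine ⟨?_, ?_, ?_, ?_⟩
  · rw [polar_PP hQ hb, hs, hb.p01, hb.p02, hb.p03]; ring
  · rw [polar_PP hQ hb, hs, c10, hb.p12, hb.p13]; ring
  · rw [polar_PP hQ hb, hs, hb.p23, c20, c21]; ring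
  · rw [polar_PP hQ hb, hs, c30, c31, c32]; ring

theorem Q_PP (w : Fin 4 → F) : Q (PP b *ᵥ w) = k * q4 w := by
  have hs := hb.q
  have e1 : Q (w 0 • b 0 + w 1 • b 1) = w 0 * w 1 * k := by
    rw [Q_add Q, hQ.smul, hQ.smul, hs, hs, hQ.polar_bilinear.smul_left, hQ.polar_bilinear.smul_right, hb.p01]
    ring
  have e2 : Q (w 0 • b 0 + w 1 • b 1 + w 2 • b 2) = w 0 * w 1 * k := by
    rw [Q_add Q, e1, hQ.smul, hs, hQ.polar_bilinear.smul_right, hQ.polar_bilinear.add_left,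
      hQ.polar_bilinear.smul_left, hQ.polar_bilinear.smul_left, hb.p02, hb.p12]
    ring
  rw [PP_mulVec, Q_add Q, e2, hQ.smul, hs, hQ.polar_bilinear.smul_right, hQ.polar_bilinear.add_left,
    hQ.polar_bilinear.add_left, hQ.polar_bilinear.smul_left, hQ.polar_bilinear.smul_left,
    hQ.polar_bilinear.smul_left, hb.p03, hb.p13, hb.p23]
  unfold q4
  ring

include hk

theorem RR_PP : RR hQ k b * PP b = 1 := by
  apply Matrix.mulVec_injective
  funext w
  funext j
  rw [← Matrix.mulVec_mulVec, RR_mulVec, Matrix.one_mulVec]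
  obtain ⟨h0, h1, h2, h3⟩ := polar_b hQ hb w
  fin_cases j
  · show k⁻¹ * polar Q (b 1) (PP b *ᵥ w) = w 0
    rw [h1, inv_mul_cancel_left₀ hk]
  · show k⁻¹ * polar Q (b 0) (PP b *ᵥ w) = w 1
    rw [h0, inv_mul_cancel_left₀ hk]
  · show k⁻¹ * polar Q (b 3) (PP b *ᵥ w) = w 2
    rw [h3, inv_mul_cancel_left₀ hk]
  · show k⁻¹ * polar Q (b 2) (PP b *ᵥ w) = w 3
    rw [h2, inv_mul_cancel_left₀ hk]

/-- the extension of an isometry of `q4` -/
theorem ext_iso {T : GL (Fin 4) F} (hT : T ∈ Cfsg.isometryGroup F (q4 (F := F))) :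
    extG (RR_PP hQ hk hb) T ∈ Cfsg.isometryGroup F Q := by
  rw [Cfsg.Agent.H925.mem_iso_iff] at hT ⊢
  intro v
  set u := RR hQ k b *ᵥ v with hu
  have hcoord : ∀ j, k * u j = polar Q v (b (tau j)) := by
    intro j
    rw [hu, RR_mulVec, mul_inv_cancel_left₀ hk, polar_comm]
  have c0 : polar Q v (b 1) = k * u 0 := (hcoord 0).symm
  have c1 : polar Q v (b 0) = k * u 1 := (hcoord 1).symm
  have c2 : polar Q v (b 3) = k * u 2 := (hcoord 2).symm
  have c3 : polar Q v (b 2) = k * u 3 := (hcoord 3).symm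
  rw [extG_mulVec, Q_add Q, Q_PP hQ hb, polar_PP hQ hb, c0, c1, c2, c3, ← hu]
  have h1 := hT u
  set w := (T : Matrix (Fin 4) (Fin 4) F) *ᵥ u with hw
  unfold q4 at h1 ⊢
  simp only [Pi.sub_apply]
  linear_combination k * h1

/-- commutators of isometries of `q4` -/
theorem ext_omega {S T : GL (Fin 4) F} (hS : S ∈ Cfsg.isometryGroup F (q4 (F := F)))
    (hT : T ∈ Cfsg.isometryGroup F (q4 (F := F))) : extG (RR_PP hQ hk hb) ⁅S, T⁆ ∈ omegaGL Q := by
  refine ⟨⁅⟨extG (RR_PP hQ hk hb) S, ext_iso hQ hk hb hS⟩, ⟨extG (RR_PP hQ hk hb) T, ext_iso hQ hk hb hT⟩⁆,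
    Subgroup.commutator_mem_commutator (Subgroup.mem_top _) (Subgroup.mem_top _), ?_⟩
  rw [map_commutatorElement, map_commutatorElement]
  rfl

end geo

/-! ### Rational hyperbolic pairs -/

section rat

open Cfsg.Agent.H926

variable {ι : Type} [Fintype ι] [DecidableEq ι] {F : Type*} [Field F] [Finite F] {Q : (ι → F) → F}

theorem exists_hyp4 (hQ : IsNondegenerateQuadraticForm Q) (h5 : 5 ≤ Fintype.card ι) {F₁ : Subfield F} {B : GL ι F}
    {ζ : F} (hζ : ζ ≠ 0) (hR : IsQuadFormRationalStructure (fun v => ζ * Q v) F₁ B) :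
    ∃ b' : Fin 4 → ι → F₁, Hyp4 Q ζ⁻¹ (fun i => jmap F₁ B (b' i)) := by
  have : Finite F₁ := inferInstance
  have hnd := ndOn_form0 hQ hζ hR
  have hfr : Module.finrank F₁ (⊤ : Submodule F₁ (ι → F₁)) = Fintype.card ι := by
    rw [finrank_top, Module.finrank_fintype_fun_eq_card]
  obtain ⟨e, he, f, hf, hef⟩ := split hnd (by rw [hfr]; omega)
  have h2 := ndOn_cut hnd hef he hf
  have hfr2 := finrank_cut hef he hf
  rw [hfr] at hfr2
  obtain ⟨e', he', f', hf', hef'⟩ := split h2 (by omega)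
  obtain ⟨-, h3, h4⟩ := mem_cut.1 he'
  obtain ⟨-, h5, h6⟩ := mem_cut.1 hf'
  have hq : ∀ u : ι → F₁, form0 hQ hR u = 0 → Q (jmap F₁ B u) = 0 := by
    intro u hu
    have h := form0_apply hQ hR u
    rw [hu] at h
    exact (mul_eq_zero.1 h.symm).resolve_left hζ
  have hp : ∀ u v : ι → F₁, polar Q (jmap F₁ B u) (jmap F₁ B v) = ζ⁻¹ * ((polar (form0 hQ hR) u v : F₁) : F) := by
    intro u v
    rw [polar_form0, inv_mul_cancel_left₀ hζ]
  refine ⟨![e, f, e', f'], ?_, ?_, ?_, ?_, ?_, ?_, ?_⟩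
  · intro i
    fin_cases i
    · exact hq e hef.left
    · exact hq f hef.right
    · exact hq e' hef'.left
    · exact hq f' hef'.right
  · show polar Q (jmap F₁ B e) (jmap F₁ B f) = ζ⁻¹
    rw [hp, hef.pair]; simp
  · show polar Q (jmap F₁ B e') (jmap F₁ B f') = ζ⁻¹
    rw [hp, hef'.pair]; simp
  · show polar Q (jmap F₁ B e) (jmap F₁ B e') = 0
    rw [hp, h3]; simp
  · show polar Q (jmap F₁ B e) (jmap F₁ B f') = 0
    rw [hp, h5]; simp
  · show polar Q (jmap F₁ B f) (jmap F₁ B e') = 0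
    rw [hp, h4]; simp
  · show polar Q (jmap F₁ B f) (jmap F₁ B f') = 0
    rw [hp, h6]; simp

/-- a nonzero element of `F` whose square is not in `F₁` -/
theorem exists_sq_notMem {F₁ : Subfield F} {r : ℕ} (hr : 2 ≤ r) (hcard : Nat.card F = Nat.card F₁ ^ r) :
    ∃ c : F, c ≠ 0 ∧ c * c ∉ F₁ := by
  by_contra hcon
  push Not at hcon
  have := Fintype.ofFinite F
  have := Fintype.ofFinite F₁
  obtain ⟨g, hg⟩ := IsCyclic.exists_generator (α := Fˣ)
  have h1 : orderOf g = Nat.card F - 1 := by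
    rw [orderOf_eq_card_of_forall_mem_zpowers hg, Nat.card_units]
  have hq1 : 1 < Nat.card F₁ := Finite.one_lt_card
  have h2 : g ^ (2 * (Nat.card F₁ - 1)) = 1 := by
    apply Units.ext
    rw [Units.val_pow_eq_pow_val, pow_mul, pow_two, Units.val_one]
    have h3 := hcon g g.ne_zero
    have h4 : (⟨(g : F) * g, h3⟩ : F₁) ≠ 0 := by
      intro h5
      exact (mul_ne_zero g.ne_zero g.ne_zero) (congrArg Subtype.val h5)
    have h5 := FiniteField.pow_card_sub_one_eq_one _ h4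
    rw [← Nat.card_eq_fintype_card] at h5
    exact congrArg Subtype.val h5
  have h3 := Nat.le_of_dvd (by omega) (orderOf_dvd_of_pow_eq_one h2)
  rw [h1, hcard] at h3
  have h4 : Nat.card F₁ ^ 2 ≤ Nat.card F₁ ^ r := Nat.pow_le_pow_right (by omega) hr
  set q := Nat.card F₁ with hq
  have h5 : q ^ 2 - 1 ≤ 2 * (q - 1) := (Nat.sub_le_sub_right h4 1).trans h3
  obtain ⟨t, ht⟩ : ∃ t, q = t + 2 := ⟨q - 2, by omega⟩
  rw [ht] at h5
  have h6 : (t + 2) ^ 2 = t * t + 4 * t + 4 := by ring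
  rw [h6] at h5
  have h7 : t + 2 - 1 = t + 1 := by omega
  rw [h7] at h5
  have h8 : 0 ≤ t * t := Nat.zero_le _
  omega

end rat

/-- **S3499-III-Om-C5.** -/
theorem om_C5 {Q : Type*} [Group Q] [Finite Q] (_hs : IsSimpleGroup Q) {A : Subgroup Q} {Γ : Subgroup (MulAut Q)}
    (h : EPT A Γ) {F : Type*} [Field F] [Fintype F] {ι : Type} [Fintype ι] [DecidableEq ι] {Qf : (ι → F) → F}
    (m : Model Q (omegaGL Qf)) (h7 : 7 ≤ Fintype.card ι) (hQ : IsNondegenerateQuadraticForm Qf)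
    (hirr : ActsIrreducibly (matrixSet (m.hat A))) {F₁ : Subfield F} {r : ℕ} {B : GL ι F} {ζ : F} (hr : r.Prime)
    (hcard : Nat.card F = Nat.card F₁ ^ r) (hζ : ζ ≠ 0) (hB : IsFormRationalStructure (polar Qf) F₁ ζ B)
    (hA : m.hat A ≤ subfieldSubgroup F₁ B) : False := by
  have hiso : m.hat A ≤ Cfsg.isometryGroup F Qf := by
    refine (m.hat_le A).trans ?_
    rintro _ ⟨g, -, rfl⟩
    exact g.2
  have hR := Cfsg.Agent.H926.quadRational_of_formRational hQ (by omega) hiso hirr hA hζ hB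
  obtain ⟨b', hb⟩ := exists_hyp4 hQ (by omega) hζ hR
  obtain ⟨φ, hφ⟩ := exists_phi F₁
  obtain ⟨c, hc, hcc⟩ := exists_sq_notMem hr.two_le hcard
  have hk : ζ⁻¹ ≠ 0 := inv_ne_zero hζ
  have hφc : φ c ≠ 0 := (map_ne_zero φ).2 hc
  -- rationality of the two matrices
  have hP : ((B⁻¹ : GL ι F).val * PP (fun i => Cfsg.Agent.H926.jmap F₁ B (b' i))).map φ =
      (B⁻¹ : GL ι F).val * PP (fun i => Cfsg.Agent.H926.jmap F₁ B (b' i)) := by
    have h1 : ∀ i j, ((B⁻¹ : GL ι F).val * PP (fun i => Cfsg.Agent.H926.jmap F₁ B (b' i))) i j = (b' j i : F) := by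
      intro i j
      have h2 : ((B⁻¹ : GL ι F).val * PP (fun i => Cfsg.Agent.H926.jmap F₁ B (b' i))) i j =
          ((B⁻¹ : GL ι F).val *ᵥ (Cfsg.Agent.H926.jmap F₁ B (b' j))) i := rfl
      rw [h2]
      unfold Cfsg.Agent.H926.jmap
      rw [Matrix.mulVec_mulVec, Units.inv_mul, Matrix.one_mulVec]
    ext i j
    rw [Matrix.map_apply, h1]
    exact (hφ _).1 (b' j i).2
  have hR' : (RR hQ ζ⁻¹ (fun i => Cfsg.Agent.H926.jmap F₁ B (b' i)) * (B : Matrix ι ι F)).map φ =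
      RR hQ ζ⁻¹ (fun i => Cfsg.Agent.H926.jmap F₁ B (b' i)) * (B : Matrix ι ι F) := by
    ext j i
    rw [Matrix.map_apply]
    apply (hφ _).1
    have h2 : (RR hQ ζ⁻¹ (fun i => Cfsg.Agent.H926.jmap F₁ B (b' i)) * (B : Matrix ι ι F)) j i =
        (RR hQ ζ⁻¹ (fun i => Cfsg.Agent.H926.jmap F₁ B (b' i)) *ᵥ ((B : Matrix ι ι F) *ᵥ (Pi.single i 1))) j := by
      rw [Matrix.mulVec_mulVec, Matrix.mulVec_single_one]
      rfl
    rw [h2, RR_mulVec, inv_inv]
    refine hB _ _ (fun t => (b' (tau j) t).2) (fun t => ?_)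
    by_cases hti : t = i
    · subst hti
      rw [Pi.single_eq_same]
      exact F₁.one_mem
    · rw [Pi.single_eq_of_ne hti]
      exact F₁.zero_mem
  refine kill_ext (RR_PP hQ hk hb) h m hφ hA hP hR' (by rw [Fintype.card_fin]; omega)
    (X := tX c hc) (G := tG F) ?_ ?_ (map_G φ) (G_X c hc) ?_ ?_
  · rw [← comm_X]
    exact ext_omega hQ hk hb (iso_T c hc) iso_S
  · rw [← comm_G]
    exact ext_omega hQ hk hb iso_R iso_S2
  · rw [map_X φ c hc hφc]
    exact X_comm _ _ _ _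
  · intro h1
    exact hcc ((hφ _).2 (map_X2 φ c hc h1))

end Cfsg.Agent.H96.C5.Orth
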